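import Cfsg.Agent.Char.PB
import Cfsg.Agent.Solv.Fitting

/-!
# Commutators of `p`-singular order and the principal block
-/

namespace CF.Cmx

open Cfsg CF.Char CF.BlockB Subgroup
open scoped ComplexConjugate

variable {p : ℕ} {G : Type*} [Group G] [Finite G]

/-- If all nontrivial commutators of `x = y v` are `p`-singular and `C(y)` centralizes the
`p'`-part `v`, then `v` lies in a normal `p'`-subgroup. -/
theorem blk (hp : p.Prime) {x y v : G} (hy : ∃ k : ℕ, orderOf y = p ^ k) (hv : ¬ p ∣ orderOf v)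
    (hx : y * v = x) (hc : centralizer ({y} : Set G) ≤ centralizer ({v} : Set G))
    (H : ∀ g : G, x⁻¹ * g⁻¹ * x * g = 1 ∨ p ∣ orderOf (x⁻¹ * g⁻¹ * x * g)) :
    ∃ L : Subgroup G, L.Normal ∧ (∀ g ∈ L, ¬ p ∣ orderOf g) ∧ v ∈ L := by
  classical
  have := Fintype.ofFinite G
  have := Fact.mk hp
  obtain ⟨M, hM⟩ := exists_isPModular hp
  have hyv : y ∈ centralizer ({v} : Set G) := hc (mem_centralizer_singleton_iff.2 rfl)
  have hvy : v ∈ centralizer ({y} : Set G) :=
    mem_centralizer_singleton_iff.2 (mem_centralizer_singleton_iff.1 hyv).symm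
  have hvO : v ∈ centralizerPPrimeCore p y := by
    refine ⟨⟨v, hvy⟩, ?_, rfl⟩
    have hz : zpowers (⟨v, hvy⟩ : centralizer ({y} : Set G)) ≤ center _ := by
      rw [zpowers_le, mem_center_iff]
      exact fun g => Subtype.ext (mem_centralizer_singleton_iff.1 (hc g.2))
    have hn : (zpowers (⟨v, hvy⟩ : centralizer ({y} : Set G))).Normal :=
      ⟨fun a ha g => by
        rw [mem_center_iff.1 (hz ha) g, mul_inv_cancel_right]; exact ha⟩
    refine CF.Solv.le_pPrimeCore ?_ (mem_zpowers _)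
    rw [Nat.card_zpowers, ← orderOf_coe]
    exact ((Nat.Prime.coprime_iff_not_dvd hp).2 hv).symm
  have key : ∀ χ ∈ pb M G, ∑ g, (χ : G → ℂ) (g * y⁻¹ * g⁻¹ * x) =
      ∑ g, (χ : G → ℂ) (g * x⁻¹ * g⁻¹ * x) := fun χ hχ => by
    rw [sum_irr_conj_mul χ.2, sum_irr_conj_mul χ.2, char_inv (irr_isCharacter χ.2),
      char_inv (irr_isCharacter χ.2) x, ← hx,
      pb_apply_mul_centralizerPPrimeCore hM hy hvO (mem_pb.1 hχ)]
  have key2 : ∀ c : IrrCharacter G → ℂ,
      ∑ g, ∑ χ ∈ pb M G, c χ * (χ : G → ℂ) (g * y⁻¹ * g⁻¹ * x) =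
      ∑ g, ∑ χ ∈ pb M G, c χ * (χ : G → ℂ) (g * x⁻¹ * g⁻¹ * x) := fun c => by
    rw [Finset.sum_comm, Finset.sum_comm (s := Finset.univ)]
    refine Finset.sum_congr rfl fun χ hχ => ?_
    rw [← Finset.mul_sum, ← Finset.mul_sum, key χ hχ]
  choose n hn0 hn using fun χ : IrrCharacter G => irr_one_eq_nat χ.2
  set W : G → ℂ := ∑ χ ∈ pb M G, (n χ : ℂ) • (χ : G → ℂ) with hW
  have hWa : ∀ g, W g = ∑ χ ∈ pb M G, (n χ : ℂ) * (χ : G → ℂ) g := fun g => by
    simp [hW, Finset.sum_apply]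
  have hWc : IsCharacter G W := char_sum _ fun χ _ => char_natCast_smul (irr_isCharacter χ.2) _
  have hW0 : ∀ g, p ∣ orderOf g → W g = 0 := fun g hg => by
    have h := weak_block_orth hM (isPBlock_principalBlock (M := M) (G := G)) (x := 1) (y := g⁻¹)
      (by rw [orderOf_one]; exact hp.not_dvd_one) (by rwa [orderOf_inv])
    rw [hWa, ← h]
    refine Finset.sum_congr rfl fun χ _ => ?_
    rw [char_inv (irr_isCharacter χ.2), Complex.conj_conj, hn]
  obtain ⟨m, hm⟩ := char_one_eq_nat hWc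
  have hm0 : (m : ℂ) ≠ 0 := by
    rw [← hm, hWa]
    simp only [hn]
    have : 0 < ∑ χ ∈ pb M G, n χ * n χ :=
      Finset.sum_pos (fun χ _ => Nat.mul_pos (hn0 χ) (hn0 χ)) ⟨_, oneIrr_mem_pb hM⟩
    exact_mod_cast this.ne'
  set R : G → ℂ := pRegularPart p fun _ => 1 with hR
  have hRa : ∀ g, R g = ∑ χ ∈ pb M G, classInner R χ * (χ : G → ℂ) g := fun g => by
    rw [classFun_apply_eq_sum (f := R) (reg_classFun (classFun_const 1)) g]
    refine (Finset.sum_subset (Finset.subset_univ _) fun χ _ hχ => ?_).symm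
    have h1 : classInner (pRegularPart p (χ : G → ℂ)) (fun _ => 1) = 0 := by
      by_contra h
      exact hχ (mem_pb.2 ((mem_pb_iff_inner hM).2 h))
    have h2 : classInner (χ : G → ℂ) R = classInner (pRegularPart p (χ : G → ℂ)) (fun _ => 1) := by
      rw [inner_def, inner_def]
      congr 1
      refine Finset.sum_congr rfl fun g _ => ?_
      rw [hR, reg_apply, reg_apply]
      split_ifs <;> simp
    rw [← Char.inner_conj_symm, h2, h1, map_zero, zero_mul]
  set F : G → ℂ := fun g => m * R g - W g with hF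
  have hFa : ∀ g, F g = ∑ χ ∈ pb M G, (m * classInner R χ - n χ) * (χ : G → ℂ) g := fun g => by
    simp only [hF]
    rw [hRa, hWa, Finset.mul_sum, ← Finset.sum_sub_distrib]
    exact Finset.sum_congr rfl fun χ _ => by ring
  have hF0 : ∀ g, p ∣ orderOf g → F g = 0 := fun g hg => by
    simp only [hF, hR]
    rw [hW0 g hg, reg_apply, if_pos hg]; simp
  have hF1 : ∀ g, ¬ p ∣ orderOf g → F g = m - W g := fun g hg => by
    simp only [hF, hR]
    rw [reg_apply, if_neg hg, mul_one]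
  have hle : ∀ g, ‖W g‖ ≤ m := fun g => by
    have := char_norm_le hWc g
    rwa [hm, Complex.norm_natCast] at this
  have hpos : ∀ g, 0 ≤ (F g).re := fun g => by
    by_cases hg : p ∣ orderOf g
    · rw [hF0 g hg]; exact le_rfl
    · rw [hF1 g hg, Complex.sub_re, Complex.natCast_re, sub_nonneg]
      exact (Complex.re_le_norm _).trans (hle g)
  have h1 : ∑ g, F (g * x⁻¹ * g⁻¹ * x) = 0 := Finset.sum_eq_zero fun g _ => by
    have e : g * x⁻¹ * g⁻¹ * x = g * (x⁻¹ * g⁻¹ * x * g) * g⁻¹ := by group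
    rcases H g with h | h
    · rw [e, h, mul_one, mul_inv_cancel, hF1 1 (by rw [orderOf_one]; exact hp.not_dvd_one), hm,
        sub_self]
    · exact hF0 _ (by rwa [e, orderOf_conj'])
  have h2 : ∑ g, F (g * y⁻¹ * g⁻¹ * x) = 0 := by
    rw [← h1]
    simp only [hFa]
    exact key2 _
  have h3 := congrArg Complex.re h2
  rw [Complex.re_sum, Complex.zero_re, Finset.sum_eq_zero_iff_of_nonneg fun g _ => hpos _] at h3
  have h4 := h3 1 (Finset.mem_univ _)
  rw [one_mul, inv_one, mul_one, ← hx, inv_mul_cancel_left, hF1 v hv, Complex.sub_re,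
    Complex.natCast_re, sub_eq_zero] at h4
  have h5 : W v = W 1 := by
    have h6 : (W v).im = 0 := by
      have h7 := hle v
      have h8 := Complex.sq_norm (W v)
      rw [Complex.normSq_apply, ← h4] at h8
      have h9 : ‖W v‖ ^ 2 ≤ (m : ℝ) ^ 2 := pow_le_pow_left₀ (norm_nonneg _) h7 2
      nlinarith [mul_self_nonneg (W v).im]
    rw [hm]
    exact Complex.ext (by rw [← h4, Complex.natCast_re]) (by rw [h6, Complex.natCast_im])
  refine ⟨charKer W, charKer_normal (char_isClassFunction hWc), fun g hg hd => hm0 ?_,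
    (mem_charKer_iff hWc).2 h5⟩
  rw [← hm, ← (mem_charKer_iff hWc).1 hg, hW0 g hd]

end CF.Cmx
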