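import Cfsg.Agent.Cmx.A
import Cfsg.Agent.S0035
import Cfsg.Agent.S0042

/-!
# Elements whose nontrivial commutators have order divisible by two primes
-/

namespace CF.Cmx

open Cfsg CF.BlockB CF.Solv Subgroup
open scoped Pointwise

universe u

variable {p : ℕ} {G : Type u} [Group G] [Finite G]

theorem reg_mem (hp : p.Prime) {v : G} (hv : v ∈ fittingSubgroup G) (h : ¬ p ∣ orderOf v) :
    v ∈ pPrimeCore p G := by
  have := Fact.mk hp
  obtain ⟨a, ha, b, hb, rfl⟩ := mem_sup_of_normal_right.1 (fitting_le_pCore_sup_pPrimeCore p hv)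
  have hc : Commute a b := pPrimeCore_le_centralizer_pCore hb a ha
  have ha' : ∃ k : ℕ, orderOf a = p ^ k := by
    obtain ⟨k, hk⟩ := IsPGroup.iff_orderOf.1 (pCore_isPGroup (p := p) (G := G)) ⟨a, ha⟩
    exact ⟨k, by rw [← hk, ← orderOf_coe]⟩
  have hb' : ¬ p ∣ orderOf b := fun h =>
    not_dvd_card_pPrimeCore (h.trans (Subgroup.orderOf_dvd_natCard _ hb))
  rw [← pReg_of_pRegular hp h, pReg_mul_of_commute hp hc ha' hb']
  exact hb

theorem mem_fit (L : Subgroup G) [L.Normal] {v : G} (hv : v ∈ L) (hc : ∀ g ∈ L, g * v = v * g) :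
    v ∈ fittingSubgroup G := by
  have : IsMulCommutative (L ⊓ centralizer (L : Set G) : Subgroup G) :=
    ⟨⟨fun a b => Subtype.ext ((mem_inf.1 b.2).2 a (mem_inf.1 a.2).1)⟩⟩
  have := isNilpotent_of_isMulCommutative (L ⊓ centralizer (L : Set G) : Subgroup G)
  exact le_fitting (L ⊓ centralizer (L : Set G)) (mem_inf.2 ⟨hv, hc⟩)

omit [Finite G] in
theorem comm_iff {x g : G} : x⁻¹ * g⁻¹ * x * g = 1 ↔ g * x = x * g := by
  constructor
  · intro h
    calc g * x = g * x * (x⁻¹ * g⁻¹ * x * g) := by rw [h, mul_one]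
      _ = x * g := by group
  · intro h
    calc x⁻¹ * g⁻¹ * x * g = (g * x)⁻¹ * (x * g) := by group
      _ = 1 := by rw [h, inv_mul_cancel]

theorem loc (hp : p.Prime) {x : G} {L : Subgroup G} (hx : x ∈ L)
    (hF : (⟨x, hx⟩ : L) ∈ fittingSubgroup L) (hy : ∀ l ∈ L, l * pPart p x = pPart p x * l)
    (H : ∀ g : G, x⁻¹ * g⁻¹ * x * g = 1 ∨ p ∣ orderOf (x⁻¹ * g⁻¹ * x * g)) :
    L ≤ centralizer ({x} : Set G) := fun l hl => by
  have := Fact.mk hp
  rw [mem_centralizer_singleton_iff, ← comm_iff]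
  refine (H l).resolve_right fun hd => ?_
  have h1 := reg_mem hp (pReg_mem (p := p) hF) (pReg_pRegular hp _)
  have h2 : (pReg p (⟨x, hx⟩ : L))⁻¹ * (⟨l, hl⟩ : L)⁻¹ * pReg p (⟨x, hx⟩ : L) * ⟨l, hl⟩ ∈
      pPrimeCore p L := by
    rw [mul_assoc, mul_assoc, ← mul_assoc (⟨l, hl⟩ : L)⁻¹]
    exact mul_mem (inv_mem h1) (Normal.conj_mem' inferInstance _ h1 _)
  refine not_dvd_card_pPrimeCore (p := p) (G := L) (dvd_trans ?_ (Subgroup.orderOf_dvd_natCard _ h2))
  rw [← orderOf_coe]
  simp only [coe_mul, coe_inv, coe_pReg]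
  have e : x⁻¹ * l⁻¹ * x * l = (pReg p x)⁻¹ * l⁻¹ * pReg p x * l := by
    have h3 := hy l⁻¹ (inv_mem hl)
    calc x⁻¹ * l⁻¹ * x * l = (pPart p x * pReg p x)⁻¹ * l⁻¹ * (pPart p x * pReg p x) * l := by
          rw [pPart_mul_pReg]
      _ = (pReg p x)⁻¹ * (pPart p x)⁻¹ * (l⁻¹ * pPart p x) * pReg p x * l := by group
      _ = _ := by rw [h3]; group
  rwa [← e]

/-- The case where every proper subgroup containing `x` centralizes `x`. -/
theorem frob {x : G} (hF : fittingSubgroup G ≤ centralizer ({x} : Set G))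
    (h : ∀ L : Subgroup G, L ≠ ⊤ → x ∈ L → L ≤ centralizer ({x} : Set G)) :
    x ∈ fittingSubgroup G := by
  set C := centralizer ({x} : Set G) with hC
  have hxC : x ∈ C := mem_centralizer_singleton_iff.2 rfl
  have ctop : ∀ u : G, centralizer ({u} : Set G) = ⊤ → u ∈ center G := fun u hu =>
    mem_center_iff.2 fun g => mem_centralizer_singleton_iff.1 (hu ▸ mem_top g)
  by_cases h1 : x ∈ center G
  · exact center_le_fitting h1
  by_cases h2 : C.Normal
  · exact mem_fit C hxC fun g hg => mem_centralizer_singleton_iff.1 hg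
  exfalso
  have h3 : normalizer (C : Set G) ≤ C :=
    h _ (fun h3 => h2 (normalizer_eq_top_iff.1 h3)) (le_normalizer hxC)
  have hZ : center G ≤ C := center_le_centralizer _
  have ti : ∀ g, g ∉ C → ∀ u ∈ C, g⁻¹ * u * g ∈ C → u ∈ center G := fun g hg u hu hu' => by
    by_contra hn
    have h4 : g⁻¹ * u * g ∉ center G := fun h4 => hn (by
      have := Normal.conj_mem inferInstance _ h4 g
      rwa [show g * (g⁻¹ * u * g) * g⁻¹ = u by group] at this)
    have h5 := h _ (fun h5 => h4 (ctop _ h5))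
      (mem_centralizer_singleton_iff.2 (mem_centralizer_singleton_iff.1 hu').symm)
    have hu1 : u * x = x * u := mem_centralizer_singleton_iff.1 hu
    have h6 : g⁻¹ * x * g ∈ C := h5 (mem_centralizer_singleton_iff.2 (by
      calc g⁻¹ * x * g * (g⁻¹ * u * g) = g⁻¹ * (x * u) * g := by group
        _ = g⁻¹ * (u * x) * g := by rw [hu1]
        _ = _ := by group))
    have h6' : g⁻¹ * x * g * x = x * (g⁻¹ * x * g) := mem_centralizer_singleton_iff.1 h6
    have h7 : g * x * g⁻¹ ∉ center G := fun h7 => h1 (by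
      have := Normal.conj_mem' inferInstance _ h7 g
      rwa [show g⁻¹ * (g * x * g⁻¹) * g = x by group] at this)
    have h8 := h _ (fun h8 => h7 (ctop _ h8)) (mem_centralizer_singleton_iff.2 (by
      calc x * (g * x * g⁻¹) = g * (g⁻¹ * x * g * x) * g⁻¹ := by group
        _ = g * (x * (g⁻¹ * x * g)) * g⁻¹ := by rw [h6']
        _ = _ := by group))
    refine hg (h3 (mem_normalizer_fintype fun c hc => h8 (mem_centralizer_singleton_iff.2 ?_)))
    have hc' : c * x = x * c := mem_centralizer_singleton_iff.1 hc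
    calc g * c * g⁻¹ * (g * x * g⁻¹) = g * (c * x) * g⁻¹ := by group
      _ = g * (x * c) * g⁻¹ := by rw [hc']
      _ = _ := by group
  set f := QuotientGroup.mk' (center G) with hf
  have hcm : (C.map f).comap f = C := by
    rw [comap_map_eq, hf, QuotientGroup.ker_mk', sup_eq_left.2 hZ]
  have hmem : ∀ g : G, f g ∈ C.map f ↔ g ∈ C := fun g => by
    rw [← mem_comap, hcm]
  have hne : C.map f ≠ ⊤ := fun h4 => h1 (ctop x (by rw [← hC, ← hcm, h4, comap_top]))
  have hfr : IsFrobeniusComplement (C.map f) := by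
    refine ⟨fun h4 => h1 ?_, hne, fun g hg => ?_⟩
    · have := (hmem x).2 hxC
      rwa [h4, mem_bot, hf, QuotientGroup.mk'_apply, QuotientGroup.eq_one_iff] at this
    · obtain ⟨g, rfl⟩ := QuotientGroup.mk'_surjective (center G) g
      rw [eq_bot_iff]
      intro a ha
      obtain ⟨a, rfl⟩ := QuotientGroup.mk'_surjective (center G) a
      obtain ⟨ha1, ha2⟩ := mem_inf.1 ha
      rw [mem_pointwise_smul_iff_inv_smul_mem, ← map_inv, MulAut.smul_def, MulAut.conj_apply,
        inv_inv, ← map_inv, ← map_mul, ← map_mul] at ha2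
      rw [mem_bot, QuotientGroup.mk'_apply, QuotientGroup.eq_one_iff]
      exact ti g (fun h => hg ((hmem g).2 h)) a ((hmem a).1 ha1) ((hmem _).1 ha2)
  obtain ⟨N, hN, hNn, hNil⟩ := Cfsg.Agent.S0042.result _ hfr
  obtain ⟨N', hN', -, hc⟩ := Cfsg.Agent.S0035.result _ hfr
  obtain rfl : N = N' := SetLike.coe_injective (hN.trans hN'.symm)
  have : Group.IsNilpotent (N.comap f) := by
    refine Subgroup.isNilpotent_of_ker_le_center (f.subgroupComap N) (fun a ha => ?_)
    have h4 : (a : G) ∈ center G := (QuotientGroup.eq_one_iff _).1 (congrArg Subtype.val ha)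
    exact mem_center_iff.2 fun g => Subtype.ext (mem_center_iff.1 h4 g)
  have h5 : N ≤ C.map f := by
    rw [← map_comap_eq_self_of_surjective (QuotientGroup.mk'_surjective (center G)) N]
    exact map_mono ((le_fitting _).trans hF)
  exact hne (by rw [← hc.sup_eq_top, sup_eq_right.2 h5])

theorem main (n : ℕ) : ∀ (G : Type u) [Group G] [Finite G], Nat.card G = n →
    ∀ (x : G) (r s : ℕ), r.Prime → s.Prime → r ≠ s →
    (∀ g : G, x⁻¹ * g⁻¹ * x * g = 1 ∨ r * s ∣ orderOf (x⁻¹ * g⁻¹ * x * g)) →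
    x ∈ fittingSubgroup G := by
  induction n using Nat.strong_induction_on with
  | _ n ih =>
  intro G _ _ hn x r s hr hs hrs H
  have IH : ∀ L : Subgroup G, L ≠ ⊤ → ∀ hx : x ∈ L, (⟨x, hx⟩ : L) ∈ fittingSubgroup L :=
    fun L hL hx => ih _ (hn ▸ card_lt_of_ne_top hL) L rfl _ r s hr hs hrs fun g =>
      (H g).imp (fun h => Subtype.ext h) fun h => by rw [← orderOf_coe]; exact h
  have cen : ∀ L : Subgroup G, L.Normal → (∀ g ∈ L, ¬ r * s ∣ orderOf g) →
      L ≤ centralizer ({x} : Set G) := fun L hL h g hg => by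
    rw [mem_centralizer_singleton_iff, ← comm_iff]
    exact (H g).resolve_right (h _ (mul_mem (hL.conj_mem' _ (inv_mem hg) x) hg))
  have hF : fittingSubgroup G ≤ centralizer ({x} : Set G) := by
    refine fitting_le_iff.2 fun t ht => cen _ inferInstance fun g hg hd => hrs ?_
    obtain ⟨k, hk⟩ := IsPGroup.iff_orderOf.1 (pCore_isPGroup (p := t) (G := G)) ⟨g, hg⟩
    rw [← orderOf_coe] at hk
    rw [show orderOf g = t ^ k from hk] at hd
    exact ((Nat.prime_dvd_prime_iff_eq hr ht.out).1 (hr.dvd_of_dvd_pow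
      ((dvd_mul_right r s).trans hd))).trans ((Nat.prime_dvd_prime_iff_eq hs ht.out).1
      (hs.dvd_of_dvd_pow ((dvd_mul_left s r).trans hd))).symm
  have step : ∀ p : ℕ, p.Prime → p ∣ r * s →
      x ∈ fittingSubgroup G ∨ ∃ k : ℕ, x ^ p ^ k ∈ fittingSubgroup G := fun p hp hd => by
    have Hp : ∀ g : G, x⁻¹ * g⁻¹ * x * g = 1 ∨ p ∣ orderOf (x⁻¹ * g⁻¹ * x * g) :=
      fun g => (H g).imp_right hd.trans
    by_cases hy : pPart p x ∈ center G
    · exact Or.inl (frob hF fun L hL hx =>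
        loc hp hx (IH L hL hx) (fun l _ => mem_center_iff.1 hy l) Hp)
    have hx : x ∈ centralizer ({pPart p x} : Set G) :=
      mem_centralizer_singleton_iff.2 (commute_pPart_self x)
    have h1 := loc hp hx (IH _ (fun h => hy (mem_center_iff.2 fun g =>
      mem_centralizer_singleton_iff.1 (h.ge (mem_top g)))) hx)
      (fun l hl => mem_centralizer_singleton_iff.1 hl) Hp
    have h2 : centralizer ({x} : Set G) ≤ centralizer ({pReg p x} : Set G) := fun g hg =>
      mem_centralizer_singleton_iff.2 (commute_pReg_of_commute (mem_centralizer_singleton_iff.1 hg))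
    obtain ⟨L, hL, hL1, hL2⟩ := blk hp (pPart_pElement hp x) (pReg_pRegular hp x)
      (pPart_mul_pReg x) (h1.trans h2) Hp
    have h3 := mem_fit L hL2 fun g hg => mem_centralizer_singleton_iff.1
      (h2 (cen L hL (fun g hg h => hL1 g hg (hd.trans h)) hg))
    obtain ⟨k, hk⟩ := pPart_pElement hp x
    refine Or.inr ⟨k, ?_⟩
    rw [← pPart_mul_pReg (p := p) x, (commute_pPart_pReg x).mul_pow, ← hk, pow_orderOf_eq_one,
      one_mul]
    exact pow_mem h3 _
  rcases step r hr (dvd_mul_right r s) with h | ⟨a, ha⟩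
  · exact h
  rcases step s hs (dvd_mul_left s r) with h | ⟨b, hb⟩
  · exact h
  rw [← QuotientGroup.eq_one_iff] at ha hb ⊢
  rw [QuotientGroup.mk_pow] at ha hb
  have := pow_gcd_eq_one.2 ⟨ha, hb⟩
  rwa [Nat.Coprime.gcd_eq_one (Nat.coprime_pow_primes a b hr hs hrs), pow_one] at this

end CF.Cmx
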